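import Cfsg.Agent.KnownB.SzSylowAut.Semilinear
import Cfsg.Agent.Suzuki.SzSylow
import Cfsg.Agent.Suzuki.SzAut
import Cfsg.Prelude.Def_Solvable
import Cfsg.Prelude.Def_Transfer

/-! The automorphism group of a Sylow `2`-subgroup of a Suzuki group. -/

set_option autoImplicit false

namespace Cfsg.Agent.KnownB.SzSylowAut

open Cfsg.Agent.Suzuki

universe u v

variable {S : Type u} [Group S] {F : Type v} [Field F] {m : ℕ} (h : Ctx F m)
  (e : F × F ≃ S)
  (hmul : ∀ a b c d : F, e (a, b) * e (c, d) = e (a + c, b + d + th m a * c))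

include h hmul

theorem e_zero : e (0, 0) = 1 := by
  have := hmul 0 0 0 0
  simp only [add_zero, th_zero, zero_mul] at this
  exact left_eq_mul.mp this.symm

theorem e_sq (a b : F) : e (a, b) * e (a, b) = e (0, th m a * a) := by
  rw [hmul, h.add_self, h.add_self, zero_add]

theorem th_mul_ne {a : F} (ha : a ≠ 0) : th m a * a ≠ 0 :=
  mul_ne_zero (pow_ne_zero _ ha) ha

/-- The first coordinate of an automorphism. -/
def top (φ : MulAut S) (a : F) : F := (e.symm (φ (e (a, 0)))).1

theorem fst_eq (φ : MulAut S) (a b : F) : (e.symm (φ (e (a, b)))).1 = top e φ a := by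
  have hb : (e.symm (φ (e (0, b)))).1 = 0 := by
    by_contra hne
    obtain ⟨⟨x, y⟩, hxy⟩ : ∃ p, e p = φ (e (0, b)) := ⟨_, e.apply_symm_apply _⟩
    rw [← hxy, e.symm_apply_apply] at hne
    have hsq : φ (e (0, b)) * φ (e (0, b)) = 1 := by
      rw [← map_mul, e_sq h e hmul, th_zero, zero_mul, e_zero h e hmul, map_one]
    rw [← hxy, e_sq h e hmul, ← e_zero h e hmul, e.apply_eq_iff_eq, Prod.mk.injEq] at hsq
    exact th_mul_ne h e hmul hne hsq.2
  have hsplit : e (a, b) = e (a, 0) * e (0, b) := by rw [hmul]; simp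
  obtain ⟨⟨x, y⟩, hxy⟩ : ∃ p, e p = φ (e (0, b)) := ⟨_, e.apply_symm_apply _⟩
  obtain ⟨⟨x', y'⟩, hxy'⟩ : ∃ p, e p = φ (e (a, 0)) := ⟨_, e.apply_symm_apply _⟩
  rw [← hxy, e.symm_apply_apply] at hb
  rw [hsplit, map_mul, ← hxy, ← hxy', hmul, e.symm_apply_apply]
  show x' + x = (e.symm (φ (e (a, 0)))).1
  rw [← hxy', e.symm_apply_apply, show x = 0 from hb, add_zero]

theorem top_apply (φ : MulAut S) (a b : F) : ∃ y, φ (e (a, b)) = e (top e φ a, y) :=
  ⟨(e.symm (φ (e (a, b)))).2, by
    rw [← fst_eq h e hmul φ a b, Prod.mk.eta, e.apply_symm_apply]⟩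

/-- The action on the quotient. -/
noncomputable def topHom : MulAut S →* Equiv.Perm F where
  toFun φ :=
    { toFun := top e φ
      invFun := top e φ⁻¹
      left_inv := fun a => by
        obtain ⟨y, hy⟩ := top_apply h e hmul φ a 0
        show top e φ⁻¹ (top e φ a) = a
        rw [← fst_eq h e hmul φ⁻¹ (top e φ a) y, ← hy, MulAut.inv_apply_self, e.symm_apply_apply]
      right_inv := fun a => by
        obtain ⟨y, hy⟩ := top_apply h e hmul φ⁻¹ a 0
        show top e φ (top e φ⁻¹ a) = a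
        rw [← fst_eq h e hmul φ (top e φ⁻¹ a) y, ← hy, MulAut.apply_inv_self, e.symm_apply_apply] }
  map_one' := Equiv.ext fun a => by show (e.symm (e (a, 0))).1 = a; rw [e.symm_apply_apply]
  map_mul' φ ψ := Equiv.ext fun a => by
    obtain ⟨y, hy⟩ := top_apply h e hmul ψ a 0
    show (e.symm (φ (ψ (e (a, 0))))).1 = top e φ (top e ψ a)
    rw [hy, fst_eq h e hmul φ]

theorem top_add (φ : MulAut S) (a c : F) : top e φ (a + c) = top e φ a + top e φ c := by
  obtain ⟨y, hy⟩ := top_apply h e hmul φ a 0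
  obtain ⟨y', hy'⟩ := top_apply h e hmul φ c 0
  rw [← fst_eq h e hmul φ (a + c) (0 + 0 + th m a * c), ← hmul, map_mul, hy, hy', hmul,
    e.symm_apply_apply]

/-- The induced map on the centre. -/
noncomputable def bot (φ : MulAut S) : F →+ F where
  toFun b := (e.symm (φ (e (0, b)))).2
  map_zero' := by rw [e_zero h e hmul, map_one, ← e_zero h e hmul, e.symm_apply_apply]
  map_add' b d := by
    obtain ⟨y, hy⟩ := top_apply h e hmul φ 0 b
    obtain ⟨y', hy'⟩ := top_apply h e hmul φ 0 d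
    have h0 : top e φ 0 = 0 := by
      show (e.symm (φ (e (0, 0)))).1 = 0
      rw [e_zero h e hmul, map_one, ← e_zero h e hmul, e.symm_apply_apply]
    have hsum : e (0, b + d) = e (0, b) * e (0, d) := by rw [hmul]; simp
    rw [hsum, map_mul, hy, hy', h0, hmul]
    simp

theorem top_compat (φ : MulAut S) (a : F) :
    th m (top e φ a) * top e φ a = bot h e hmul φ (th m a * a) := by
  obtain ⟨y, hy⟩ := top_apply h e hmul φ a 0
  show _ = (e.symm (φ (e (0, th m a * a)))).2
  rw [← e_sq h e hmul a 0, map_mul, hy, e_sq h e hmul, e.symm_apply_apply]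

/-- `θ` as a field automorphism. -/
noncomputable def thEquiv : F ≃+* F :=
  haveI := h.finite
  let f : F →+* F :=
    { toFun := th m
      map_one' := th_one
      map_mul' := th_mul
      map_zero' := th_zero
      map_add' := h.th_add }
  RingEquiv.ofBijective f (Finite.injective_iff_bijective.mp h.th_injective)

omit hmul in
theorem thEquiv_apply (x : F) : thEquiv h x = th m x := rfl

/-- The semilinear automorphisms. -/
noncomputable def semi (l : Fˣ) (σ : F ≃+* F) : MulAut S where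
  toFun x := e ((l : F) * σ (e.symm x).1, th m (l : F) * (l : F) * σ (e.symm x).2)
  invFun x := e (σ.symm ((l : F)⁻¹ * (e.symm x).1), σ.symm ((th m (l : F) * (l : F))⁻¹ * (e.symm x).2))
  left_inv x := by
    have hl : th m (l : F) * (l : F) ≠ 0 := th_mul_ne h e hmul l.ne_zero
    simp only [e.symm_apply_apply, inv_mul_cancel_left₀ l.ne_zero, inv_mul_cancel_left₀ hl,
      RingEquiv.symm_apply_apply, Prod.mk.eta, e.apply_symm_apply]
  right_inv x := by
    have hl : th m (l : F) * (l : F) ≠ 0 := th_mul_ne h e hmul l.ne_zero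
    simp only [e.symm_apply_apply, RingEquiv.apply_symm_apply, mul_inv_cancel_left₀ l.ne_zero,
      mul_inv_cancel_left₀ hl, Prod.mk.eta, e.apply_symm_apply]
  map_mul' x y := by
    obtain ⟨⟨a, b⟩, rfl⟩ := e.surjective x
    obtain ⟨⟨c, d⟩, rfl⟩ := e.surjective y
    simp only [hmul, e.symm_apply_apply, e.apply_eq_iff_eq, Prod.mk.injEq, map_add, map_mul, th_map, th_mul]
    constructor <;> ring

theorem top_semi (l : Fˣ) (σ : F ≃+* F) (a : F) : top e (semi h e hmul l σ) a = (l : F) * σ a := by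
  simp [top, semi]

theorem mem_range_iff (π : Equiv.Perm F) :
    π ∈ (topHom h e hmul).range ↔ ∃ (l : Fˣ) (σ : F ≃+* F), ∀ a, π a = (l : F) * σ a := by
  have := h.finite
  have := h.charP
  constructor
  · rintro ⟨φ, rfl⟩
    have hn := card_ringEquiv (F := F) (p := 2) (n := 2 * m + 1) (hF := h.card)
    exact semilinear (thEquiv h) (fun x => by rw [thEquiv_apply, thEquiv_apply, h.th_th])
      (by rw [hn]; exact ⟨m, rfl⟩) (by rw [hn]; have := h.one_le; omega)
      (AddMonoidHom.mk' (top e φ) (top_add h e hmul φ)) (bot h e hmul φ)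
      (fun a c hac => ((topHom h e hmul) φ).injective hac)
      (fun a => top_compat h e hmul φ a)
  · rintro ⟨l, σ, hπ⟩
    exact ⟨semi h e hmul l σ, Equiv.ext fun a => by rw [hπ]; exact top_semi h e hmul l σ a⟩

theorem card_range [Fact (Nat.Prime 2)] :
    Nat.card (topHom h e hmul).range = (2 * m + 1) * (2 ^ (2 * m + 1) - 1) := by
  have := h.finite
  let P : Fˣ × (F ≃+* F) → (topHom h e hmul).range := fun p =>
    ⟨topHom h e hmul (semi h e hmul p.1 p.2), _, rfl⟩
  have hval : ∀ p a, (P p).1 a = (p.1 : F) * p.2 a := fun p a => top_semi h e hmul p.1 p.2 a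
  have hb : Function.Bijective P := by
    constructor
    · intro p q hpq
      have he : ∀ a, (p.1 : F) * p.2 a = (q.1 : F) * q.2 a := fun a => by rw [← hval, ← hval, hpq]
      have h1 : p.1 = q.1 := Units.ext (by simpa using he 1)
      refine Prod.ext h1 (RingEquiv.ext fun a => ?_)
      have := he a
      rw [h1] at this
      exact mul_left_cancel₀ q.1.ne_zero this
    · rintro ⟨π, hπ⟩
      obtain ⟨l, σ, hl⟩ := (mem_range_iff h e hmul π).mp hπ
      exact ⟨(l, σ), Subtype.ext (Equiv.ext fun a => by rw [hval, hl])⟩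
  rw [← Nat.card_eq_of_bijective P hb, Nat.card_prod, Nat.card_units, h.card,
    card_ringEquiv (p := 2) (n := 2 * m + 1) (hF := h.card), mul_comm]

theorem top_of_mem_ker {φ : MulAut S} (hφ : φ ∈ (topHom h e hmul).ker) (a : F) : top e φ a = a :=
  Equiv.ext_iff.mp (MonoidHom.mem_ker.mp hφ) a

theorem bot_of_mem_ker {φ : MulAut S} (hφ : φ ∈ (topHom h e hmul).ker) (b : F) : φ (e (0, b)) = e (0, b) := by
  obtain ⟨a, rfl⟩ := exists_th_mul h b
  obtain ⟨y, hy⟩ := top_apply h e hmul φ a 0
  rw [← e_sq h e hmul a 0, map_mul, hy, top_of_mem_ker h e hmul hφ, e_sq h e hmul, e_sq h e hmul]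

/-- Central automorphisms. -/
noncomputable def cen (f : F →+ F) : MulAut S where
  toFun x := e ((e.symm x).1, (e.symm x).2 + f (e.symm x).1)
  invFun x := e ((e.symm x).1, (e.symm x).2 - f (e.symm x).1)
  left_inv x := by simp
  right_inv x := by simp
  map_mul' x y := by
    obtain ⟨⟨a, b⟩, rfl⟩ := e.surjective x
    obtain ⟨⟨c, d⟩, rfl⟩ := e.surjective y
    simp only [hmul, e.symm_apply_apply, e.apply_eq_iff_eq, Prod.mk.injEq, map_add, true_and]
    ring

theorem cen_mem (f : F →+ F) : cen e hmul f ∈ (topHom h e hmul).ker :=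
  MonoidHom.mem_ker.mpr (Equiv.ext fun a => by
    show (e.symm (cen e hmul f (e (a, 0)))).1 = a
    simp [cen])

theorem cen_add (f g : F →+ F) : cen e hmul (f + g) = cen e hmul f * cen e hmul g := by
  refine MulEquiv.ext fun x => ?_
  obtain ⟨⟨a, b⟩, rfl⟩ := e.surjective x
  simp [cen]
  ring

theorem cen_surj {φ : MulAut S} (hφ : φ ∈ (topHom h e hmul).ker) : ∃ f, cen e hmul f = φ := by
  let B : F → F := fun a => (e.symm (φ (e (a, 0)))).2
  have hB : ∀ a, φ (e (a, 0)) = e (a, B a) := fun a => by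
    have h1 := top_of_mem_ker h e hmul hφ a
    rw [top] at h1
    have h2 : e.symm (φ (e (a, 0))) = (a, B a) := Prod.ext h1 rfl
    rw [← h2, e.apply_symm_apply]
  have hsplit : ∀ a b, φ (e (a, b)) = e (a, B a + b) := fun a b => by
    have : e (a, b) = e (a, 0) * e (0, b) := by rw [hmul]; simp
    rw [this, map_mul, hB, bot_of_mem_ker h e hmul hφ, hmul]
    simp
  refine ⟨AddMonoidHom.mk' B fun a c => ?_, MulEquiv.ext fun x => ?_⟩
  · have := congrArg φ (hmul a 0 c 0)
    rw [map_mul, hB, hB, hmul, hsplit, e.apply_eq_iff_eq, Prod.mk.injEq] at this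
    linear_combination -this.2
  · obtain ⟨⟨a, b⟩, rfl⟩ := e.surjective x
    rw [hsplit]
    simp [cen, add_comm]

theorem card_ker : Nat.card (topHom h e hmul).ker = 2 ^ ((2 * m + 1) ^ 2) := by
  have := h.finite
  have := h.charP
  have hb : Function.Bijective (fun f : F →+ F => (⟨cen e hmul f, cen_mem h e hmul f⟩ : (topHom h e hmul).ker)) := by
    refine ⟨fun f g hfg => AddMonoidHom.ext fun a => ?_, fun φ => ?_⟩
    · have := DFunLike.congr_fun (congrArg Subtype.val hfg) (e (a, 0))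
      simpa [cen] using this
    · obtain ⟨f, hf⟩ := cen_surj h e hmul φ.2
      exact ⟨f, Subtype.ext hf⟩
  let _ := ZMod.algebra F 2
  haveI : Fact (Nat.Prime 2) := ⟨Nat.prime_two⟩
  have e2 : (F →+ F) ≃ (F →ₗ[ZMod 2] F) :=
    ⟨fun f => f.toZModLinearMap 2, fun f => f.toAddMonoidHom, fun f => rfl, fun f => rfl⟩
  have hn : Module.finrank (ZMod 2) F = 2 * m + 1 := by
    have h2 := Module.natCard_eq_pow_finrank (K := ZMod 2) (V := F)
    rw [h.card, Nat.card_zmod] at h2
    exact (Nat.pow_right_injective le_rfl h2).symm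
  rw [← Nat.card_eq_of_bijective _ hb, Nat.card_congr e2,
    Module.natCard_eq_pow_finrank (K := ZMod 2), Module.finrank_linearMap, hn, Nat.card_zmod, sq]

theorem ker_elementary : Cfsg.IsElementaryAbelian 2 (topHom h e hmul).ker := by
  refine ⟨⟨⟨fun x y => ?_⟩⟩, fun x hx => ?_⟩
  · obtain ⟨f, hf⟩ := cen_surj h e hmul x.2
    obtain ⟨g, hg⟩ := cen_surj h e hmul y.2
    refine Subtype.ext ?_
    show x.1 * y.1 = y.1 * x.1
    rw [← hf, ← hg, ← cen_add h e hmul, ← cen_add h e hmul, add_comm]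
  · obtain ⟨f, rfl⟩ := cen_surj h e hmul hx
    have hf : f + f = 0 := AddMonoidHom.ext fun a => h.add_self (f a)
    rw [sq, ← cen_add h e hmul, hf]
    refine MulEquiv.ext fun x => ?_
    simp [cen]

theorem aut_structure : Cfsg.IsElementaryAbelian 2 (Cfsg.pCore 2 (MulAut S)) ∧
    Nat.card ↥(Cfsg.pCore 2 (MulAut S)) = 2 ^ ((2 * m + 1) ^ 2) ∧
      Nat.card (MulAut S) = 2 ^ ((2 * m + 1) ^ 2) * ((2 * m + 1) * (2 ^ (2 * m + 1) - 1)) := by
  haveI : Fact (Nat.Prime 2) := ⟨Nat.prime_two⟩
  have := h.finite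
  haveI : Finite S := Finite.of_equiv _ e
  have hker : IsPGroup 2 (topHom h e hmul).ker := IsPGroup.of_card (card_ker h e hmul)
  have hodd : Odd (Nat.card (topHom h e hmul).range) := by
    rw [card_range h e hmul]
    refine Odd.mul ⟨m, rfl⟩ (Nat.Even.sub_odd Nat.one_le_two_pow ?_ odd_one)
    exact Nat.even_pow.mpr ⟨even_two, by omega⟩
  have hcore : Cfsg.pCore 2 (MulAut S) = (topHom h e hmul).ker := by
    refine le_antisymm (sSup_le fun N hN => ?_) (le_sSup ⟨inferInstance, hker⟩)
    intro x hx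
    obtain ⟨k, hk⟩ := hN.2 ⟨x, hx⟩
    have h1 : orderOf (topHom h e hmul x) ∣ 2 ^ k := by
      refine orderOf_dvd_of_pow_eq_one ?_
      rw [← map_pow, show x ^ 2 ^ k = 1 from congrArg Subtype.val hk, map_one]
    obtain ⟨j, -, hj⟩ := (Nat.dvd_prime_pow Nat.prime_two).mp h1
    have h2 : orderOf (topHom h e hmul x) ∣ Nat.card (topHom h e hmul).range := by
      have := orderOf_dvd_natCard (⟨topHom h e hmul x, x, rfl⟩ : (topHom h e hmul).range)
      rwa [← Subgroup.orderOf_coe] at this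
    rw [hj] at h2
    rcases Nat.eq_zero_or_pos j with rfl | hj0
    · rw [pow_zero, orderOf_eq_one_iff] at hj
      exact MonoidHom.mem_ker.mpr hj
    · exact absurd ((dvd_pow_self 2 hj0.ne').trans h2) hodd.not_two_dvd_nat
  rw [hcore]
  refine ⟨ker_elementary h e hmul, card_ker h e hmul, ?_⟩
  rw [← Subgroup.card_mul_index (topHom h e hmul).ker, Subgroup.index_ker, card_ker h e hmul,
    card_range h e hmul]

end Cfsg.Agent.KnownB.SzSylowAut
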