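import Cfsg.Agent.Suzuki.FieldAutSpan

/-! Additive maps compatible with the squaring map `a ↦ θ(a) a` are semilinear of rank one. -/

set_option autoImplicit false

namespace Cfsg.Agent.KnownB.SzSylowAut

open Cfsg.Agent.Suzuki

variable {F : Type*} [Field F]

theorem sum_eq_diag {ι : Type*} [Fintype ι] [DecidableEq ι] (h2 : ∀ x : F, x + x = 0)
    (T : ι → ι → F) (hT : ∀ i j, T i j = T j i ∨ i = j) :
    ∑ i, ∑ j, T i j = ∑ i, T i i := by
  rw [← Fintype.sum_prod_type', ← Finset.sum_filter_add_sum_filter_not Finset.univ (fun p : ι × ι => p.1 = p.2)]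
  have h0 : ∑ p ∈ Finset.univ.filter (fun p : ι × ι => ¬ p.1 = p.2), T p.1 p.2 = 0 := by
    refine Finset.sum_involution (fun p _ => p.swap) (fun p hp => ?_) (fun p hp _ => ?_)
      (fun p hp => ?_) (fun p _ => Prod.swap_swap p)
    · rcases hT p.1 p.2 with e | e
      · show T p.1 p.2 + T p.2 p.1 = 0
        rw [← e, h2]
      · exact absurd e (Finset.mem_filter.mp hp).2
    · exact fun e => (Finset.mem_filter.mp hp).2 (congrArg Prod.snd e)
    · exact Finset.mem_filter.mpr ⟨Finset.mem_univ _, fun e => (Finset.mem_filter.mp hp).2 e.symm⟩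
  rw [h0, add_zero]
  refine Finset.sum_nbij' (fun p => p.1) (fun i => (i, i)) ?_ ?_ ?_ ?_ ?_
  · simp
  · simp
  · intro p hp; exact Prod.ext rfl (Finset.mem_filter.mp hp).2
  · simp
  · intro p hp
    exact congrArg (T p.1) (Finset.mem_filter.mp hp).2.symm

variable [Finite F] [CharP F 2]

theorem semilinear (ts : F ≃+* F) (hts : ∀ x, ts (ts x) = x ^ 2) (hodd : Odd (Nat.card (F ≃+* F)))
    (hne : 1 < Nat.card (F ≃+* F)) (A β : F →+ F) (hA : Function.Injective A)
    (hq : ∀ a, ts (A a) * A a = β (ts a * a)) :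
    ∃ (l : Fˣ) (σ : F ≃+* F), ∀ a, A a = (l : F) * σ a := by
  classical
  haveI : Finite (F ≃+* F) := Finite.of_injective (fun σ => (σ : F → F)) DFunLike.coe_injective
  let _ := Fintype.ofFinite (F ≃+* F)
  obtain ⟨α, hα⟩ := exists_additive_coeff A
  obtain ⟨γ, hγ⟩ := exists_additive_coeff β
  have h2 : ∀ x : F, x + x = 0 := CharTwo.add_self_eq_zero
  let M : (F ≃+* F) → (F ≃+* F) → F := fun σ τ =>
    ts (α (ts⁻¹ * σ)) * α τ - if σ = τ * ts then γ τ else 0
  have hQ : ∀ x y, (∑ σ, ∑ τ, M σ τ * (σ x * τ y)) = ts (A x) * A y - β (ts x * y) := by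
    intro x y
    simp only [M, sub_mul, Finset.sum_sub_distrib, ite_mul, zero_mul]
    congr 1
    · rw [hα x, hα y, map_sum, Finset.sum_mul_sum, ← Equiv.sum_comp (Equiv.mulLeft ts)]
      refine Finset.sum_congr rfl fun σ _ => Finset.sum_congr rfl fun τ _ => ?_
      rw [Equiv.coe_mulLeft, inv_mul_cancel_left, map_mul]
      show _ * (ts (σ x) * τ y) = _
      ring
    · rw [hγ, Finset.sum_comm]
      refine Finset.sum_congr rfl fun τ _ => ?_
      rw [Finset.sum_ite_eq' Finset.univ (τ * ts), if_pos (Finset.mem_univ _), map_mul]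
      rfl
  have hdiag : ∀ a, (∑ σ, ∑ τ, M σ τ * (σ a * τ a)) = 0 := fun a => by rw [hQ, hq, sub_self]
  -- polarisation
  have hsym : ∀ σ τ, M σ τ + M τ σ = 0 := by
    have hpol : ∀ x y, (∑ τ, (∑ σ, (M σ τ + M τ σ) * σ x) * τ y) = 0 := fun x y => by
      have h := hdiag (x + y)
      simp only [map_add, mul_add, add_mul, Finset.sum_add_distrib, hdiag x, hdiag y, zero_add, add_zero] at h
      simp only [Finset.sum_mul, add_mul, Finset.sum_add_distrib]
      rw [← h, add_comm]
      congr 1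
      · exact Finset.sum_congr rfl fun τ _ => Finset.sum_congr rfl fun σ _ => by ring
      · rw [Finset.sum_comm]
        exact Finset.sum_congr rfl fun τ _ => Finset.sum_congr rfl fun σ _ => by ring
    intro σ τ
    have h1 : ∀ x, (∑ σ, (M σ τ + M τ σ) * σ x) = 0 := fun x =>
      congrFun (coeff_unique (c := fun τ => ∑ σ, (M σ τ + M τ σ) * σ x) (c' := 0)
        (fun y => by simpa using hpol x y)) τ
    exact congrFun (coeff_unique (c := fun σ => M σ τ + M τ σ) (c' := 0)
      (fun x => by simpa using h1 x)) σ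
  have hM0 : ∀ σ, M σ σ = 0 := by
    have hd : ∀ a, ∑ σ, M σ σ * (σ a * σ a) = 0 := fun a => by
      rw [← sum_eq_diag h2 (fun σ τ => M σ τ * (σ a * τ a)), hdiag]
      intro σ τ
      refine Or.inl ?_
      show M σ τ * (σ a * τ a) = M τ σ * (τ a * σ a)
      linear_combination (σ a * τ a) * hsym σ τ - h2 (M τ σ * (σ a * τ a))
    intro σ
    have hroot : ∀ a : F, ∑ σ, M σ σ * σ a = 0 := fun a => by
      obtain ⟨b, rfl⟩ : ∃ b, ts (ts b) = a := (ts.surjective.comp ts.surjective) a
      rw [← hd b]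
      exact Finset.sum_congr rfl fun σ _ => by rw [hts, map_pow, sq]
    exact congrFun (coeff_unique (c := fun σ => M σ σ) (c' := 0) (fun a => by simpa using hroot a)) σ
  -- the support
  have hts1 : ts * ts ≠ 1 := fun e => by
    have hfix : ∀ x : F, x ^ 2 = x := fun x => by rw [← hts]; exact RingEquiv.congr_fun e x
    have : ∀ σ : F ≃+* F, σ = 1 := fun σ => RingEquiv.ext fun x => by
      rcases mul_eq_zero.mp (show x * (x - 1) = 0 by linear_combination hfix x) with h | h
      · simp [h]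
      · simp [sub_eq_zero.mp h]
    have hs : Subsingleton (F ≃+* F) := ⟨fun a b => by rw [this a, this b]⟩
    have := Nat.card_of_subsingleton (1 : F ≃+* F)
    omega
  have hts0 : ts ≠ 1 := fun e => hts1 (by rw [e, one_mul])
  have hcomm : ∀ σ τ : F ≃+* F, σ * τ = τ * σ := by
    let _ := ZMod.algebra F 2
    have hc : IsMulCommutative (F ≃ₐ[ZMod 2] F) := IsCyclic.isMulCommutative
    intro σ τ
    let L : (F ≃+* F) → (F ≃ₐ[ZMod 2] F) := fun σ => AlgEquiv.ofRingEquiv (f := σ) fun x =>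
      RingHom.congr_fun (RingHom.ext_zmod ((σ : F →+* F).comp (algebraMap (ZMod 2) F)) (algebraMap (ZMod 2) F)) x
    refine RingEquiv.ext fun x => ?_
    exact AlgEquiv.congr_fun (hc.is_comm.comm (L σ) (L τ)) x
  have hnot : ∀ τ, α τ ≠ 0 → α (ts * τ) = 0 := fun τ hτ => by
    by_contra h
    have := hM0 (ts * τ)
    simp only [M, inv_mul_cancel_left] at this
    rw [if_neg (fun e => hts0 (mul_eq_left.mp e.symm)), sub_zero] at this
    rcases mul_eq_zero.mp this with e | e
    · exact hτ (by simpa using e)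
    · exact h e
  have hrel : ∀ σ τ, α σ ≠ 0 → α τ ≠ 0 → σ = τ ∨ σ = ts * ts * τ := fun σ τ hσ hτ => by
    by_contra hcon
    push Not at hcon
    have := hsym (ts * τ) σ
    simp only [M, inv_mul_cancel_left] at this
    rw [if_neg (fun e => hcon.1 (mul_left_cancel (e.trans (hcomm σ ts)).symm)),
      if_neg (fun e => hcon.2 (by rw [e, hcomm (ts * τ) ts, mul_assoc])), hnot τ hτ, mul_zero, sub_zero,
      sub_zero, add_zero] at this
    rcases mul_eq_zero.mp this with e | e
    · exact hτ (by simpa using e)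
    · exact hσ e
  obtain ⟨w, hw⟩ : ∃ w, α w ≠ 0 := by
    by_contra h
    push Not at h
    exact one_ne_zero (hA (show A 1 = A 0 by rw [hα, hα]; simp [h]))
  have hsupp : ∀ σ, σ ≠ w → α σ = 0 := fun σ hσ => by
    by_contra h
    have e1 := (hrel σ w h hw).resolve_left hσ
    have e2 := (hrel w σ hw h).resolve_left (Ne.symm hσ)
    rw [e1, ← mul_assoc, eq_comm, mul_eq_right] at e2
    have h2' : orderOf (ts * ts) ∣ 2 := orderOf_dvd_of_pow_eq_one (by rw [sq]; exact e2)
    rcases (Nat.dvd_prime Nat.prime_two).mp h2' with e | e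
    · exact hts1 (orderOf_eq_one_iff.mp e)
    · exact (Nat.not_even_iff_odd.mpr hodd) (even_iff_two_dvd.mpr (e ▸ orderOf_dvd_natCard _))
  refine ⟨Units.mk0 _ hw, w, fun a => ?_⟩
  rw [hα, Finset.sum_eq_single w (fun σ _ hσ => by rw [hsupp σ hσ, zero_mul]) (by simp), Units.val_mk0]

end Cfsg.Agent.KnownB.SzSylowAut
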