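import Cfsg.Agent.KnownB.SzSylowAut.Main

/-! Transfer to an arbitrary Sylow subgroup. -/

set_option autoImplicit false

namespace Cfsg.Agent.KnownB.SzSylowAut

open Cfsg.Agent.Suzuki

universe u v

theorem sylow_aut {S : Type u} [Group S] {F : Type v} [Field F] [Fintype F] (m : ℕ) (hm : 1 ≤ m)
    (hF : Fintype.card F = 2 ^ (2 * m + 1)) (P : Sylow 2 ↥(Cfsg.Lie.Sz F (2 ^ (m + 1))))
    (hS : Nonempty (S ≃* ↥(P : Subgroup ↥(Cfsg.Lie.Sz F (2 ^ (m + 1)))))) :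
    Cfsg.IsElementaryAbelian 2 (Cfsg.pCore 2 (MulAut S)) ∧
      Nat.card ↥(Cfsg.pCore 2 (MulAut S)) = 2 ^ ((2 * m + 1) ^ 2) ∧
      Nat.card (MulAut S) = 2 ^ ((2 * m + 1) ^ 2) * ((2 * m + 1) * (2 ^ (2 * m + 1) - 1)) := by
  haveI : Fact (Nat.Prime 2) := ⟨Nat.prime_two⟩
  have h : Ctx F m := ⟨hm, by rw [Nat.card_eq_fintype_card, hF]⟩
  haveI := finite_sz h
  obtain ⟨f⟩ := hS
  let L : Cfsg.Sz F m ≃* Cfsg.Lie.Sz F (2 ^ (m + 1)) := lieEquiv h
  haveI : Finite ↥(Cfsg.Lie.Sz F (2 ^ (m + 1))) := Finite.of_equiv _ L.toEquiv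
  let Q : Sylow 2 ↥(Cfsg.Lie.Sz F (2 ^ (m + 1))) :=
    (uSylow h).mapSurjective (f := L.toMonoidHom) L.surjective
  let g : ↥(uGrp h) ≃* S := (L.subgroupMap (uGrp h)).trans
    ((MulEquiv.subgroupCongr (show (uGrp h).map L.toMonoidHom = (Q : Subgroup _) from
      ((congrArg (Subgroup.map L.toMonoidHom) (uSylow_coe h).symm).trans
        (Sylow.coe_mapSurjective _ (uSylow h)).symm))).trans ((Sylow.equiv Q P).trans f.symm))
  refine aut_structure h ((uEquiv h).trans g.toEquiv) fun a b c d => ?_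
  show g (uEquiv h (a, b)) * g (uEquiv h (c, d)) = g (uEquiv h (_, _))
  rw [← map_mul]
  exact congrArg g (Subtype.ext (uEl_mul h a b c d))

end Cfsg.Agent.KnownB.SzSylowAut
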